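import Cfsg.Agent.H64.CharP.Core
import Cfsg.Agent.H48.Ree.Sylow

/-!
The small Ree groups have local characteristic three.
-/

set_option autoImplicit false

open Cfsg.Lie Cfsg.Agent.H46 Cfsg.Agent.H48.Ree Cfsg.Agent.H64

namespace Cfsg.Agent.H27.CharP

variable {K : Type*} [Field K] [Fintype K] {m : ℕ}

/-- An element centralising the unipotent subgroup lies in it. -/
theorem mem_Ur_of_centralizes (hK : Fintype.card K = 3 ^ (2 * m + 1)) {c : GL chevG2.Idx K}
    (hc : c ∈ Gr K m) (hcomm : ∀ w ∈ Ur K m, c * w = w * c) : c ∈ Ur K m := by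
  haveI := (field_data hK).1
  have hq := (field_data hK).2
  have hcB : c ∈ Br K m := by
    by_contra hcB
    obtain ⟨w, hw, hne⟩ := Ur_ne_bot hK
    refine hne (conj_inter hK hc hcB hw ?_)
    rw [hcomm w hw, mul_inv_cancel_right]
    exact Ur_le_Br hw
  obtain ⟨u, hu, h, hh, rfl⟩ := mem_Br hK hcB
  obtain ⟨ψ, hψ, hact⟩ := exists_param (uShape hK)
  obtain ⟨a, b, d, rfl⟩ := uShape hK u hu
  have e := hcomm (W (3 ^ m) 1 0 0) (W_mem_U (3 ^ m) 1 0 0)
  have e' := hact ⟨h, hh⟩ 1 0 0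
  rw [mul_inv_eq_iff_eq_mul] at e'
  rw [mul_assoc, e', ← mul_assoc, ← mul_assoc] at e
  have e2 := mul_right_cancel e
  rw [W_mul hq, W_mul hq] at e2
  obtain ⟨et, -, -⟩ := W_injective e2
  have hx : ψ ⟨h, hh⟩ = 1 := by
    refine Units.ext ?_
    rw [Units.val_one]
    linear_combination et
  have h1 : h = 1 := congrArg Subtype.val (hψ (hx.trans (map_one ψ).symm))
  rw [h1, mul_one]
  exact hu

/-- Local characteristic `p` from trivial intersections of Sylow subgroups, one of them self-centralising. -/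
theorem local_of_trivial_inter {G : Type*} [Group G] [Finite G] {p : ℕ} [Fact p.Prime]
    (hTI : ∀ P Q : Sylow p G, P ≠ Q → (P : Subgroup G) ⊓ (Q : Subgroup G) = ⊥)
    (S : Subgroup G) (hS : IsPGroup p S) (hC : ∀ c : G, (∀ w ∈ S, c * w = w * c) → c ∈ S) :
    CharP.Local p G := by
  refine CharP.local_of_witness fun z hz hzp => ?_
  obtain ⟨P, hzP⟩ := (CharP.isPGroup_zpowers_of_pow hzp).exists_le_sylow
  rw [Subgroup.zpowers_le] at hzP
  refine ⟨P, P.2, fun c hc => ?_, fun c hcp hcomm => Subgroup.mem_bot.2 ?_⟩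
  · refine Sylow.smul_eq_iff_mem_normalizer.1 ?_
    by_contra hne
    refine hz ((Subgroup.eq_bot_iff_forall _).1 (hTI (c • P) P hne) z ⟨⟨z, hzP, ?_⟩, hzP⟩)
    show c * z * c⁻¹ = z
    rw [Subgroup.mem_centralizer_singleton_iff.1 hc, mul_inv_cancel_right]
  · obtain ⟨T, hT⟩ := hS.exists_le_sylow
    obtain ⟨a, rfl⟩ := MulAction.exists_smul_eq G T P
    have hmem : a⁻¹ * c * a ∈ S := by
      refine hC _ fun w hw => ?_
      have h2 : a * w * a⁻¹ ∈ (↑(a • T) : Subgroup G) := ⟨w, hT hw, rfl⟩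
      calc a⁻¹ * c * a * w = a⁻¹ * (c * (a * w * a⁻¹)) * a := by group
        _ = a⁻¹ * (a * w * a⁻¹ * c) * a := by rw [(hcomm _ h2).eq]
        _ = w * (a⁻¹ * c * a) := by group
    have hord : orderOf (a⁻¹ * c * a) = orderOf c := by
      have := (MulAut.conj a⁻¹).orderOf_eq c
      simpa [MulAut.conj_apply, inv_inv] using this
    have h1 := H74.eq_one_of_mem_pGroup T.2 (by rwa [hord]) (hT hmem)
    calc c = a * (a⁻¹ * c * a) * a⁻¹ := by group
      _ = 1 := by rw [h1]; group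

theorem local_ree (hK : Fintype.card K = 3 ^ (2 * m + 1)) : CharP.Local 3 ↥(Gr K m) := by
  haveI : Fact (Nat.Prime 3) := ⟨Nat.prime_three⟩
  refine local_of_trivial_inter (sylow_three_trivial_inter hK) ((Ur K m).subgroupOf (Gr K m))
    (IsPGroup.of_card (n := (2 * m + 1) * 3) (by
      rw [Nat.card_congr (Subgroup.subgroupOfEquivOfLe (inf_le_right : Ur K m ≤ Gr K m)).toEquiv,
        card_Ur hK, pow_mul])) fun c hc => ?_
  rw [Subgroup.mem_subgroupOf]
  exact mem_Ur_of_centralizes hK c.2 fun w hw =>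
    congrArg Subtype.val (hc ⟨w, (Subgroup.mem_inf.1 hw).2⟩ (Subgroup.mem_subgroupOf.2 hw))

theorem local_isoRee {G : Type*} [Group G] (h : Cfsg.Lie.IsoRee G) : CharP.Local 3 G := by
  obtain ⟨K, _, _, m, -, hK, ⟨e⟩⟩ := h
  haveI : Fact (Nat.Prime 3) := ⟨Nat.prime_three⟩
  exact CharP.local_of_equiv e (local_ree hK)

end Cfsg.Agent.H27.CharP
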