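import Cfsg.Agent.H64.CharP.Core
import Cfsg.Agent.H7.SzLie
import Cfsg.Agent.H7.SzSylow

/-!
The Suzuki groups have local characteristic two.
-/

set_option autoImplicit false

open Cfsg.Agent.H64

namespace Cfsg.Agent.H27.CharP

variable {F : Type*} [Field F] {m : ℕ}

theorem local_sz (H : H7.SzHyp F m) : CharP.Local 2 (Sz F m) := by
  haveI := H.finite_Sz
  haveI : Fact (Nat.Prime 2) := ⟨Nat.prime_two⟩
  intro z hz hzp c hc hcp _
  obtain ⟨x, hx⟩ := H.exists_conj_mem_Q (g := z) ⟨1, hzp⟩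
  have hne : x * z * x⁻¹ ≠ 1 := fun e => hz (conj_eq_one_iff.1 e)
  have hcQ : x * c * x⁻¹ ∈ H.Q := by
    refine H.centralizer_le_Q hx hne (Subgroup.mem_centralizer_singleton_iff.2 ?_)
    calc x * c * x⁻¹ * (x * z * x⁻¹) = x * (c * z) * x⁻¹ := by group
      _ = x * (z * c) * x⁻¹ := by rw [Subgroup.mem_centralizer_singleton_iff.1 hc]
      _ = x * z * x⁻¹ * (x * c * x⁻¹) := by group
  have hord : orderOf (x * c * x⁻¹) = orderOf c := by
    simpa [MulAut.conj_apply] using (MulAut.conj x).orderOf_eq c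
  exact conj_eq_one_iff.1 (H74.eq_one_of_mem_pGroup H.isPGroup_Q (by rwa [hord]) hcQ)

theorem local_isoSuzuki {G : Type*} [Group G] (h : Cfsg.Lie.IsoSuzuki G) : CharP.Local 2 G := by
  obtain ⟨F, _, _, m, hm, hF, ⟨e⟩⟩ := h
  have H := H7.SzHyp.of_fintype hm hF
  haveI := H.finite_Sz
  haveI : Fact (Nat.Prime 2) := ⟨Nat.prime_two⟩
  exact CharP.local_of_equiv (e.trans H.lieEquiv.symm) (local_sz H)

end Cfsg.Agent.H27.CharP
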